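import Cfsg.Agent.H821.K547.Defs
import Cfsg.Agent.Cit.Eleven
import Mathlib

/-!
# S4547, row `M₁₁` (helper71)
-/

set_option autoImplicit false

namespace Cfsg.Agent.H71.K547

open Cfsg Cfsg.Agent.H821.K547 Cfsg.Agent.Cit.Eleven

universe u

/-- an element of order eight of `GL(2,3)` -/
def g8 : X := ⟨!![1, 1; 1, 0], !![0, 1; 1, -1], by decide, by decide⟩

theorem g8_aux : (!![1, 1; 1, 0] * !![1, 1; 1, 0] * (!![1, 1; 1, 0] * !![1, 1; 1, 0]) : Matrix (Fin 2) (Fin 2) (ZMod 3)) = -1 := by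
  decide

theorem g8_four : g8 ^ 4 = -1 := by
  apply Units.ext
  have h : (g8 ^ 4 : X) = g8 * g8 * (g8 * g8) := by rw [pow_succ, pow_succ, pow_succ, pow_one, mul_assoc (g8 * g8)]
  rw [h]
  exact g8_aux

theorem orderOf_g8 : orderOf g8 = 8 := by
  have h : orderOf g8 = 2 ^ (2 + 1) := by
    apply orderOf_eq_prime_pow
    · rw [show (2 : ℕ) ^ 2 = 4 from rfl, g8_four]
      intro h
      have h1 := congrArg (fun g : X => (g : Matrix (Fin 2) (Fin 2) (ZMod 3)) 0 0) h
      revert h1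
      decide
    · rw [show (2 : ℕ) ^ (2 + 1) = 4 * 2 from rfl, pow_mul, g8_four]
      exact neg_one_sq
  rw [h]
  norm_num

/-- **S4547, row `M₁₁`** -/
theorem row_m11 {S : Type u} [Group S] (h : Cfsg.Spor.IsoM11 S) : Row S where
  base := by
    right
    have hfin := finite h
    have hcard : Nat.card S = 7920 := (isM11 h).2
    have : Fact (Nat.Prime 2) := ⟨Nat.prime_two⟩
    obtain ⟨z, hz⟩ := exists_prime_orderOf_dvd_card' (G := S) 2 (by rw [hcard]; norm_num)
    obtain ⟨e⟩ := nonempty_equiv h hz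
    refine ⟨(e.symm g8 : Subgroup.centralizer ({z} : Set S)), 3, ?_, ?_⟩
    · rw [Subgroup.orderOf_coe, MulEquiv.orderOf_eq, orderOf_g8]
      norm_num
    · intro hd
      have h1 := hd.trans (Subgroup.card_subgroup_dvd_card _)
      rw [hcard] at h1
      exact absurd h1 (by norm_num)
  ext τ _ hτ := by
    exfalso
    obtain ⟨g, hg⟩ := aut_inner h τ
    exact hτ ⟨g, fun x => by rw [hg]; rfl⟩

end Cfsg.Agent.H71.K547
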